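import Cfsg.Agent.H891.DG.Defs

/-!
# Tools for the rows of S4180 (helper440)

* `cos2_congr` : `Cos2` along an isomorphism (any universes);
* `cos2_of_out_two` : `Out T` of order at most two, `σ` a representative of the outer coset, `T = ⟨b, σ b⟩` and `T` is
  2-generated;
* `gen_equiv` : generating pairs along an isomorphism.
-/

set_option autoImplicit false

namespace Cfsg.Agent.H440.DG.Basic

open Subgroup Cfsg.Agent.H891.DG Cfsg.Agent.H891.Gen Cfsg.Agent.H440.TwoGen

universe u v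

theorem gen_equiv {T : Type u} {H : Type v} [Group T] [Group H] (e : T ≃* H) {c b : H}
    (h : closure ({c, b} : Set H) = ⊤) : closure ({e.symm c, e.symm b} : Set T) = ⊤ := by
  have h1 : ({e.symm c, e.symm b} : Set T) = e.symm.toMonoidHom '' {c, b} := by
    rw [Set.image_pair]; rfl
  rw [h1, ← MonoidHom.map_closure, h, ← MonoidHom.range_eq_map]
  exact MonoidHom.range_eq_top.2 e.symm.surjective

theorem conj_mem_of {T : Type u} [Group T] {S : Subgroup (MulAut T)} {b c : T} (h : closure ({b, c} : Set T) = ⊤)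
    (hb : MulAut.conj b ∈ S) (hc : MulAut.conj c ∈ S) : (MulAut.conj : T →* MulAut T).range ≤ S := by
  rw [MonoidHom.range_eq_map, ← h, MonoidHom.map_closure, closure_le]
  rintro _ ⟨x, hx, rfl⟩
  simp only [Set.mem_insert_iff, Set.mem_singleton_iff] at hx
  rcases hx with rfl | rfl
  · exact hb
  · exact hc

theorem conj_aut {T : Type u} [Group T] (σ : MulAut T) (b : T) : σ * MulAut.conj b * σ⁻¹ = MulAut.conj (σ b) := by
  ext x
  simp [MulAut.conj_apply]

/-- **`Out T` of order at most two.** -/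
theorem cos2_of_out_two {T : Type u} [Group T] (σ : MulAut T) (hT : TwoGen T)
    (hout : ∀ α : MulAut T, ∃ x : T, α = MulAut.conj x ∨ α = MulAut.conj x * σ) {b : T}
    (h : closure ({b, σ b} : Set T) = ⊤) : Cos2 T := by
  set N : Subgroup (MulAut T) := (MulAut.conj : T →* MulAut T).range with hN
  have hNn : N.Normal := inferInstance
  have key : ∀ S : Subgroup (MulAut T), σ ∈ S → MulAut.conj b ∈ S → N ≤ S := by
    intro S h1 h2
    refine conj_mem_of h h2 ?_
    rw [← conj_aut]
    exact S.mul_mem (S.mul_mem h1 h2) (S.inv_mem h1)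
  have hmem : ∀ x : T, MulAut.conj x ∈ N := fun x => ⟨x, rfl⟩
  -- an element of the outer coset
  have ho : ∀ x : T, (MulAut.conj x * σ)⁻¹ * σ ∈ N := by
    intro x
    have h1 : (MulAut.conj x * σ)⁻¹ * σ = σ⁻¹ * (MulAut.conj x)⁻¹ * σ⁻¹⁻¹ := by group
    rw [h1]
    exact hNn.conj_mem _ (N.inv_mem (hmem x)) _
  have mix : ∀ x y : MulAut T, x ∈ N → (∃ g : T, y = MulAut.conj g * σ) → Lift N x y := by
    rintro x y hx ⟨g, rfl⟩
    refine ⟨x⁻¹ * MulAut.conj b, N.mul_mem (N.inv_mem hx) (hmem b), (MulAut.conj g * σ)⁻¹ * σ, ho g, ?_⟩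
    rw [mul_inv_cancel_left, mul_inv_cancel_left]
    exact key _ (subset_closure (by simp)) (subset_closure (by simp))
  intro x y
  obtain ⟨a, ha⟩ := hout x
  obtain ⟨c, hc⟩ := hout y
  rcases ha with ha | ha <;> rcases hc with hc | hc
  · obtain ⟨p, q, hpq⟩ := hT
    refine ⟨x⁻¹ * MulAut.conj p, N.mul_mem (N.inv_mem (ha ▸ hmem a)) (hmem p), y⁻¹ * MulAut.conj q,
      N.mul_mem (N.inv_mem (hc ▸ hmem c)) (hmem q), ?_⟩
    rw [mul_inv_cancel_left, mul_inv_cancel_left]
    exact conj_mem_of hpq (subset_closure (by simp)) (subset_closure (by simp))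
  · exact mix x y (ha ▸ hmem a) ⟨c, hc⟩
  · exact (mix y x (hc ▸ hmem c) ⟨a, ha⟩).symm
  · subst ha hc
    refine ⟨(MulAut.conj a * σ)⁻¹ * σ, ho a, (MulAut.conj c * σ)⁻¹ * σ * MulAut.conj b,
      N.mul_mem (ho c) (hmem b), ?_⟩
    rw [mul_inv_cancel_left, ← mul_assoc, mul_inv_cancel_left]
    have h1 : σ ∈ closure ({σ, σ * MulAut.conj b} : Set (MulAut T)) := subset_closure (by simp)
    have h2 : σ * MulAut.conj b ∈ closure ({σ, σ * MulAut.conj b} : Set (MulAut T)) := subset_closure (by simp)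
    refine key _ h1 ?_
    have h3 := mul_mem (inv_mem h1) h2
    rwa [inv_mul_cancel_left] at h3

/-- the two cosets of the inner automorphisms -/
theorem out_of_card {T : Type u} [Group T] {σ : MulAut T} (hσ : ∀ x : T, σ ≠ MulAut.conj x)
    (h : Nat.card (Cfsg.Out T) = 2) (α : MulAut T) : ∃ x : T, α = MulAut.conj x ∨ α = MulAut.conj x * σ := by
  have h2 : (MulAut.conj : T →* MulAut T).range.index = 2 := h
  by_cases hα : α ∈ (MulAut.conj : T →* MulAut T).range
  · obtain ⟨x, hx⟩ := hα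
    exact ⟨x, Or.inl hx.symm⟩
  · have h3 : α * σ⁻¹ ∈ (MulAut.conj : T →* MulAut T).range := by
      rw [Subgroup.mul_mem_iff_of_index_two h2]
      refine ⟨fun h4 => absurd h4 hα, fun h4 => absurd (inv_mem h4) ?_⟩
      rw [inv_inv]
      rintro ⟨x, hx⟩
      exact hσ x hx.symm
    obtain ⟨x, hx⟩ := h3
    exact ⟨x, Or.inr (by rw [hx, inv_mul_cancel_right])⟩

/-- `Cos2` along an isomorphism. -/
theorem cos2_congr {T : Type u} {H : Type v} [Group T] [Group H] (e : T ≃* H) (h : Cos2 H) : Cos2 T := by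
  have hc : ∀ t : T, MulAut.congr e (MulAut.conj t) = MulAut.conj (e t) := by
    intro t
    ext x
    simp [MulAut.congr]
  have hr : (MulAut.conj : T →* MulAut T).range.map (MulAut.congr e).toMonoidHom =
      (MulAut.conj : H →* MulAut H).range := by
    ext α
    constructor
    · rintro ⟨_, ⟨t, rfl⟩, rfl⟩
      exact ⟨e t, (hc t).symm⟩
    · rintro ⟨k, rfl⟩
      refine ⟨MulAut.conj (e.symm k), ⟨_, rfl⟩, ?_⟩
      change MulAut.congr e (MulAut.conj (e.symm k)) = _
      rw [hc, e.apply_symm_apply]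
  intro x y
  obtain ⟨s, hs, t, ht, hst⟩ := h (MulAut.congr e x) (MulAut.congr e y)
  rw [← hr] at hs ht hst
  obtain ⟨s', hs', rfl⟩ := hs
  obtain ⟨t', ht', rfl⟩ := ht
  refine ⟨s', hs', t', ht', ?_⟩
  have h1 : ({MulAut.congr e x * (MulAut.congr e).toMonoidHom s', MulAut.congr e y * (MulAut.congr e).toMonoidHom t'} :
      Set (MulAut H)) = (MulAut.congr e).toMonoidHom '' {x * s', y * t'} := by
    rw [Set.image_pair, map_mul, map_mul]; rfl
  rw [h1, ← MonoidHom.map_closure] at hst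
  exact (Subgroup.map_le_map_iff_of_injective (MulAut.congr e).injective).1 hst

end Cfsg.Agent.H440.DG.Basic
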